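import Cfsg.Agent.S5608
import Cfsg.Prelude.Def_Classification2

/-!
# Elements of small order in `A₇` and `M₂₃` (helper341)

* `no_fifteen` : in `S_n`, `n ≤ 7`, no element of order 3 commutes with an element of order 5.
* `m23_false` : in `M₂₃` no involution centralizes an abelian group of order 9 and exponent 3.
-/

set_option autoImplicit false

namespace Cfsg.Agent.H341.EightSpor

open Subgroup Equiv Equiv.Perm Cfsg

/-- a prime divisor of the `lcm` of a multiset divides one of its elements -/
theorem exists_dvd_of_dvd_lcm {p : ℕ} (hp : p.Prime) (s : Multiset ℕ) (h : p ∣ s.lcm) : ∃ m ∈ s, p ∣ m := by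
  induction s using Multiset.induction_on with
  | empty =>
    rw [Multiset.lcm_zero] at h
    exact absurd (Nat.dvd_one.1 h) hp.one_lt.ne'
  | cons a s ih =>
    rw [Multiset.lcm_cons] at h
    have h1 : p ∣ a * s.lcm := h.trans (Nat.lcm_dvd_mul _ _)
    rcases hp.dvd_mul.1 h1 with h2 | h2
    · exact ⟨a, Multiset.mem_cons_self _ _, h2⟩
    · obtain ⟨m, hm, hpm⟩ := ih h2
      exact ⟨m, Multiset.mem_cons_of_mem hm, hpm⟩

theorem no_fifteen {n : ℕ} (hn : n ≤ 7) (a b : Perm (Fin n)) (ha : orderOf a = 3) (hb : orderOf b = 5)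
    (hab : a * b = b * a) : False := by
  have h15 : orderOf (a * b) = 15 := by
    rw [Commute.orderOf_mul_eq_mul_orderOf_of_coprime hab (by rw [ha, hb]; norm_num), ha, hb]
  have hl := lcm_cycleType (a * b)
  rw [h15] at hl
  obtain ⟨m, hm, h3⟩ := exists_dvd_of_dvd_lcm Nat.prime_three (a * b).cycleType (by rw [hl]; norm_num)
  obtain ⟨k, hk, h5⟩ := exists_dvd_of_dvd_lcm Nat.prime_five (a * b).cycleType (by rw [hl]; norm_num)
  have hm2 := two_le_of_mem_cycleType hm
  have hk2 := two_le_of_mem_cycleType hk
  have hs : (a * b).cycleType.sum ≤ 7 := by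
    rw [sum_cycleType]
    exact (Finset.card_le_univ _).trans (by rw [Fintype.card_fin]; exact hn)
  obtain ⟨t, ht⟩ := Multiset.exists_cons_of_mem hm
  rw [ht, Multiset.mem_cons] at hk
  rw [ht, Multiset.sum_cons] at hs
  rcases hk with hk | hk
  · rw [hk] at h5
    have h6 : 15 ∣ m := Nat.Coprime.mul_dvd_of_dvd_of_dvd (by norm_num : Nat.Coprime 3 5) h3 h5
    have := Nat.le_of_dvd (by omega) h6
    omega
  · obtain ⟨t', ht'⟩ := Multiset.exists_cons_of_mem hk
    rw [ht', Multiset.sum_cons] at hs
    have := Nat.le_of_dvd (by omega) h3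
    have := Nat.le_of_dvd (by omega) h5
    omega

/-- The number of fixed points of `x` on an invariant finite set is congruent modulo `p` to its size. -/
theorem card_mod {α : Type*} [DecidableEq α] {p : ℕ} [Fact p.Prime] {x : Perm α} (hx : x ^ p = 1)
    (D : Finset α) (hD : ∀ a ∈ D, x a ∈ D) : D.card ≡ (D.filter fun a => x a = a).card [MOD p] := by
  let f : D → D := fun a => ⟨x a.1, hD _ a.2⟩
  have hfn : ∀ (n : ℕ) (a : D), ((f^[n] a : D) : α) = (x ^ n) a := by
    intro n
    induction n with
    | zero => intro a; rfl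
    | succ n ih =>
      intro a
      rw [Function.iterate_succ_apply, ih, pow_succ, Perm.mul_apply]
  have hp : (show Function.End D from f) ^ p ^ 1 = 1 := by
    funext a
    apply Subtype.ext
    rw [pow_one]
    have h1 : ∀ n : ℕ, (show Function.End D from f) ^ n = f^[n] := by
      intro n
      induction n with
      | zero => rfl
      | succ n ih =>
        rw [pow_succ, ih]
        rfl
    rw [h1]
    have h2 := hfn p a
    rw [hx] at h2
    exact h2
  have h := Equiv.Perm.card_fixedPoints_modEq hp
  have e1 : Fintype.card D = D.card := Fintype.card_coe D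
  have e2 : Fintype.card (Function.fixedPoints f) = (D.filter fun a => x a = a).card := by
    rw [← Fintype.card_coe]
    refine Fintype.card_congr ⟨fun a => ⟨a.1.1, Finset.mem_filter.2 ⟨a.1.2, congrArg Subtype.val a.2⟩⟩,
      fun a => ⟨⟨a.1, (Finset.mem_filter.1 a.2).1⟩, Subtype.ext (Finset.mem_filter.1 a.2).2⟩,
      fun a => rfl, fun a => rfl⟩
  rw [e1] at h
  have h' : D.card ≡ Fintype.card (Function.fixedPoints f) [MOD p] := by convert h
  rwa [e2] at h'

theorem m23_false (D : Subgroup (Perm GolayPt)) (hD : D ≤ Spor.M23) (hcard : Nat.card D = 9)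
    (hcomm : ∀ a ∈ D, ∀ b ∈ D, a * b = b * a) (hexp : ∀ a ∈ D, a ^ 3 = 1) (t : Perm GolayPt) (ht : t ∈ Spor.M23)
    (ht2 : orderOf t = 2) (hc : ∀ a ∈ D, a * t = t * a) : False := by
  classical
  have : Fact (Nat.Prime 3) := ⟨Nat.prime_three⟩
  have : Fact (Nat.Prime 2) := ⟨Nat.prime_two⟩
  have hnone : ∀ a ∈ Spor.M23, a none = none := fun a ha => ha.2
  have hord : ∀ a ∈ D, a ≠ 1 → orderOf a = 3 := fun a ha h => orderOf_eq_prime (hexp a ha) h
  have htt : t ^ 2 = 1 := by rw [← ht2, pow_orderOf_eq_one]
  have hfx : ∀ a ∈ D, a ≠ 1 → (Finset.univ.filter fun p => a p = p).card = 6 ∧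
      (Finset.univ.filter fun p => t p = p).card = 8 := by
    intro a ha h
    rcases S5608.result a t (hD ha).1 ht.1 (hord a ha h) ht2 (hc a ha) with h1 | h1
    · exact h1
    · exfalso
      rw [Finset.card_eq_zero, Finset.filter_eq_empty_iff] at h1
      exact h1.1 (Finset.mem_univ none) (hnone a (hD ha))
  set F : Finset GolayPt := Finset.univ.filter fun p => t p = p with hF
  have hFD : ∀ a ∈ D, ∀ p ∈ F, a p ∈ F := by
    intro a ha p hp
    rw [hF, Finset.mem_filter] at hp ⊢
    refine ⟨Finset.mem_univ _, ?_⟩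
    have h1 := congrArg (fun g : Perm GolayPt => g p) (hc a ha)
    change a (t p) = t (a p) at h1
    rw [← h1, hp.2]
  have hcom : ∀ a ∈ D, a ≠ 1 → (F.filter fun p => a p = p).card = 2 := by
    intro a ha h
    obtain ⟨h6, h8⟩ := hfx a ha h
    have m3 := card_mod (hexp a ha) F (hFD a ha)
    rw [h8] at m3
    have m2 := card_mod (x := t) (p := 2) htt (Finset.univ.filter fun p => a p = p) (by
      intro p hp
      rw [Finset.mem_filter] at hp ⊢
      refine ⟨Finset.mem_univ _, ?_⟩
      have h1 := congrArg (fun g : Perm GolayPt => g p) (hc a ha)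
      change a (t p) = t (a p) at h1
      rw [h1, hp.2])
    rw [h6] at m2
    have e : ((Finset.univ.filter fun p => a p = p).filter fun p => t p = p) = (F.filter fun p => a p = p) := by
      ext p
      simp only [hF, Finset.mem_filter, Finset.mem_univ, true_and]
      exact and_comm
    rw [e] at m2
    have hle : (F.filter fun p => a p = p).card ≤ 6 := by
      rw [← h6]
      apply Finset.card_le_card
      intro p hp
      rw [Finset.mem_filter] at hp ⊢
      exact ⟨Finset.mem_univ _, hp.2⟩
    unfold Nat.ModEq at m2 m3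
    omega
  -- fixed points of `x` in `F` are fixed by all of `D`
  have hall : ∀ a ∈ D, a ≠ 1 → ∀ b ∈ D, ∀ p ∈ F, a p = p → b p = p := by
    intro a ha h b hb p hp hap
    have h2 := hcom a ha h
    have m3 := card_mod (hexp b hb) (F.filter fun p => a p = p) (by
      intro q hq
      rw [Finset.mem_filter] at hq ⊢
      refine ⟨hFD b hb q hq.1, ?_⟩
      have h1 := congrArg (fun g : Perm GolayPt => g q) (hcomm a ha b hb)
      change a (b q) = b (a q) at h1
      rw [h1, hq.2])
    have hle := Finset.card_filter_le (F.filter fun p => a p = p) (fun p => b p = p)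
    rw [h2] at m3 hle
    have h3 : ((F.filter fun p => a p = p).filter fun p => b p = p).card = 2 := by
      unfold Nat.ModEq at m3
      omega
    have h4 : ((F.filter fun p => a p = p).filter fun p => b p = p) = (F.filter fun p => a p = p) :=
      Finset.eq_of_subset_of_card_le (Finset.filter_subset _ _) (by rw [h2, h3])
    have h5 : p ∈ ((F.filter fun p => a p = p).filter fun p => b p = p) := by
      rw [h4, Finset.mem_filter]
      exact ⟨hp, hap⟩
    exact (Finset.mem_filter.1 h5).2
  -- a nontrivial element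
  obtain ⟨a, ha, ha1⟩ : ∃ a ∈ D, a ≠ 1 := by
    by_contra hno
    push Not at hno
    have h1 : D = ⊥ := (eq_bot_iff_forall _).2 hno
    rw [h1, Subgroup.card_bot] at hcard
    omega
  obtain ⟨p, hp, hap⟩ : ∃ p ∈ F, a p ≠ p := by
    by_contra hno
    push Not at hno
    have h1 := hcom a ha ha1
    have h2 : (F.filter fun p => a p = p) = F := Finset.filter_true_of_mem hno
    rw [h2, (hfx a ha ha1).2] at h1
    omega
  have hinj : Function.Injective (fun d : D => (⟨(d : Perm GolayPt) p, hFD d d.2 p hp⟩ : F)) := by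
    intro c d hcd
    have h1 : (c : Perm GolayPt) p = (d : Perm GolayPt) p := congrArg Subtype.val hcd
    by_contra hne
    have h2 : (d : Perm GolayPt)⁻¹ * (c : Perm GolayPt) ≠ 1 := by
      intro h
      apply hne
      apply Subtype.ext
      exact (inv_mul_eq_one.1 h).symm
    have h3 : ((d : Perm GolayPt)⁻¹ * (c : Perm GolayPt)) p = p := by
      rw [Perm.mul_apply, h1]
      exact (d : Perm GolayPt).symm_apply_apply p
    exact hap (hall _ (D.mul_mem (D.inv_mem d.2) c.2) h2 a ha p hp h3)
  have hle := Nat.card_le_card_of_injective _ hinj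
  rw [hcard, Nat.card_eq_fintype_card, Fintype.card_coe, (hfx a ha ha1).2] at hle
  omega

end Cfsg.Agent.H341.EightSpor
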