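import Cfsg.Agent.S0000
import Cfsg.Agent.OrdDiv.Table
import Cfsg.Agent.H341.EndEight

/-!
# The end of S3329 and S3330: the case of a simple normal subgroup (helper341)
-/

set_option autoImplicit false

namespace Cfsg.Agent.H341.EndEight

open Subgroup Cfsg

universe u

/-- **the end of S3329** -/
theorem end29 {G : Type u} [Group G] [Finite G]
    (P : Sylow 3 G) (D : Subgroup G) (hDP : D = P) (y z : G) (hgen : Subgroup.closure {y, z} = D)
    (hcomm : IsMulCommutative D) (hcard : Nat.card D = 9) (hexp : ∀ a ∈ D, a ^ 3 = 1)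
    (_hC : Subgroup.centralizer (D : Set G) = D)
    (eN : Subgroup.normalizer (D : Set G) ⧸ D.subgroupOf (Subgroup.normalizer (D : Set G)) ≃* DihedralGroup 4)
    (hyn : (D.subgroupOf (Subgroup.centralizer ({y} : Set G))).Normal)
    (hycard : Nat.card (Subgroup.centralizer ({y} : Set G)) = 18)
    (Ny : Subgroup G) (_hNy : Ny = Subgroup.normalizer (Subgroup.zpowers y : Set G))
    (_hyN : D ≤ Ny) [_hyNn : (D.subgroupOf Ny).Normal]
    (_hyNcard : Nat.card (Ny ⧸ D.subgroupOf Ny) = 4) (_hyNexp : ∀ g : Ny ⧸ D.subgroupOf Ny, g ^ 2 = 1)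
    (eC : Subgroup.centralizer ({z} : Set G) ≃* Multiplicative (ZMod 3) × alternatingGroup (Fin 5))
    (_eL : Subgroup.normalizer (Subgroup.zpowers z : Set G) ≃*
      (((Equiv.Perm.sign).comp (MonoidHom.fst (Equiv.Perm (Fin 3)) (Equiv.Perm (Fin 5)))) *
        ((Equiv.Perm.sign).comp (MonoidHom.snd (Equiv.Perm (Fin 3)) (Equiv.Perm (Fin 5))))).ker)
    (K : Subgroup G) (_hKn : K.Normal) (hKs : IsSimpleGroup K) (hKna : ¬ ∀ a b : K, a * b = b * a) (hDK : D ≤ K)
    (_hCK : Subgroup.centralizer (K : Set G) = ⊥) :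
    Nonempty (G ≃* alternatingGroup (Fin 8)) :=
  (loc29 P D hDP y z hgen hcomm hcard hexp eN hyn hycard eC).end_one OrdDiv.table hDK hKs hKna S0000.result

/-- **the end of S3330** -/
theorem end30 {G : Type u} [Group G] [Finite G]
    (P : Sylow 3 G) (D : Subgroup G) (hDP : D = P) (y z : G) (hgen : Subgroup.closure {y, z} = D)
    (hcomm : IsMulCommutative D) (hcard : Nat.card D = 9) (hexp : ∀ a ∈ D, a ^ 3 = 1)
    (hC : Nat.card (Subgroup.centralizer (D : Set G)) = 18)
    (eN : Subgroup.normalizer (D : Set G) ⧸ D.subgroupOf (Subgroup.normalizer (D : Set G)) ≃*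
      DihedralGroup 4 × Multiplicative (ZMod 2))
    [hcn : ((Subgroup.centralizer (D : Set G)).subgroupOf (Subgroup.normalizer (D : Set G))).Normal]
    (_eNC : Subgroup.normalizer (D : Set G) ⧸
      (Subgroup.centralizer (D : Set G)).subgroupOf (Subgroup.normalizer (D : Set G)) ≃* DihedralGroup 4)
    (hyn : (D.subgroupOf (Subgroup.centralizer ({y} : Set G))).Normal)
    (hycard : Nat.card (Subgroup.centralizer ({y} : Set G)) = 36)
    (hysq : ∀ g ∈ Subgroup.centralizer ({y} : Set G), g ^ 2 ∈ D)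
    (Ny : Subgroup G) (_hNy : Ny = Subgroup.normalizer (Subgroup.zpowers y : Set G))
    (_hyNn : (D.subgroupOf Ny).Normal) (_hyNcard : Nat.card Ny = 72) (_hyNsq : ∀ g ∈ Ny, g ^ 2 ∈ D)
    (eC : Subgroup.centralizer ({z} : Set G) ≃* Multiplicative (ZMod 3) × Equiv.Perm (Fin 5))
    (_eL : Subgroup.normalizer (Subgroup.zpowers z : Set G) ≃* Equiv.Perm (Fin 3) × Equiv.Perm (Fin 5))
    (K : Subgroup G) (_hKn : K.Normal) (hKs : IsSimpleGroup K) (hKna : ¬ ∀ a b : K, a * b = b * a) (hDK : D ≤ K)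
    (hCK : Subgroup.centralizer (K : Set G) = ⊥) :
    Nonempty (G ≃* Equiv.Perm (Fin 8)) :=
  (loc30 P D hDP y z hgen hcomm hcard hexp eN hyn hycard hysq eC).end_two OrdDiv.table (exists_t D hC) hDK hKs hKna
    S0000.result hCK

end Cfsg.Agent.H341.EndEight
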